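import Cfsg.Agent.H141.Rg.Act

/-!
# S5714, team RG: dimensions of the primary components (helper5)
-/

set_option autoImplicit false

namespace Cfsg.Agent.H5.Rg

open Cfsg Cfsg.Agent.H141.Rg Polynomial Module

section ker

variable {K V : Type*} [Field K] [AddCommGroup V] [Module K V]

/-- the kernel of `f (y) ^ j` -/
noncomputable def kk (y : V →ₗ[K] V) (f : K[X]) (j : ℕ) : Submodule K V := LinearMap.ker (aeval y (f ^ j))

theorem mem_kk {y : V →ₗ[K] V} {f : K[X]} {j : ℕ} {v : V} : v ∈ kk y f j ↔ aeval y (f ^ j) v = 0 := Iff.rfl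

theorem aeval_mul_apply (y : V →ₗ[K] V) (f g : K[X]) (v : V) : aeval y (f * g) v = aeval y f (aeval y g v) := by
  rw [map_mul, Module.End.mul_apply]

theorem aeval_dvd {y : V →ₗ[K] V} {f g : K[X]} {v : V} (h : aeval y f v = 0) (hd : f ∣ g) : aeval y g v = 0 := by
  obtain ⟨k, rfl⟩ := hd
  rw [mul_comm, aeval_mul_apply, h, map_zero]

theorem kk_mono (y : V →ₗ[K] V) (f : K[X]) : Monotone (kk y f) := fun _ _ h _ hv =>
  mem_kk.2 (aeval_dvd (mem_kk.1 hv) (pow_dvd_pow f h))

theorem kk_zero (y : V →ₗ[K] V) (f : K[X]) : kk y f 0 = ⊥ := by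
  ext v
  rw [mem_kk, pow_zero, map_one, Module.End.one_apply, Submodule.mem_bot]

theorem ann_of_not_mem {y : V →ₗ[K] V} {f : K[X]} (hf : Irreducible f) {j : ℕ} {v : V} (h1 : v ∈ kk y f (j + 1))
    (h2 : v ∉ kk y f j) : Ann y v (f ^ (j + 1)) := by
  intro g
  refine ⟨fun hg => ?_, fun hd => aeval_dvd (mem_kk.1 h1) hd⟩
  classical
  have hh : aeval y (EuclideanDomain.gcd g (f ^ (j + 1))) v = 0 := by
    rw [EuclideanDomain.gcd_eq_gcd_ab, map_add, LinearMap.add_apply, mul_comm, aeval_mul_apply, hg, map_zero,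
      mul_comm (f ^ (j + 1)), aeval_mul_apply, mem_kk.1 h1, map_zero, add_zero]
  obtain ⟨i, hi, hu⟩ := (dvd_prime_pow hf.prime (j + 1)).1 (EuclideanDomain.gcd_dvd_right g (f ^ (j + 1)))
  have hi' : i = j + 1 := by
    by_contra hne
    exact h2 (mem_kk.2 (aeval_dvd hh (hu.dvd.trans (pow_dvd_pow f (by omega)))))
  subst hi'
  exact hu.symm.dvd.trans (EuclideanDomain.gcd_dvd_left _ _)

/-- a space containing all `g (y) v` has dimension at least the degree of the annihilator of `v` -/
theorem natDegree_le_finrank [FiniteDimensional K V] {y : V →ₗ[K] V} {g : K[X]} (hg : g.Monic) {v : V} (hv : Ann y v g)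
    (W : Submodule K V) (hW : ∀ h : K[X], aeval y h v ∈ W) : g.natDegree ≤ finrank K W := by
  let φ : degreeLT K g.natDegree →ₗ[K] W :=
    { toFun := fun h => ⟨aeval y (h : K[X]) v, hW _⟩
      map_add' := fun a b => by
        ext; simp
      map_smul' := fun a b => by
        ext; simp }
  have hφ : Function.Injective φ := by
    rw [← LinearMap.ker_eq_bot, LinearMap.ker_eq_bot']
    rintro ⟨h, hh⟩ h0
    have h1 : aeval y h v = 0 := congrArg Subtype.val h0
    have h2 := (hv h).1 h1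
    ext1
    by_contra hne
    have h3 := degree_le_of_dvd h2 hne
    rw [mem_degreeLT, ← degree_eq_natDegree hg.ne_zero] at hh
    exact absurd (h3.trans_lt hh) (lt_irrefl _)
  have := LinearMap.finrank_le_finrank_of_injective hφ
  rwa [(degreeLTEquiv K g.natDegree).finrank_eq, finrank_fin_fun] at this

/-- the dimension of the kernel of `f (y) ^ j` -/
noncomputable def kd (y : V →ₗ[K] V) (f : K[X]) (j : ℕ) : ℕ := finrank K (kk y f j)

theorem kd_zero (y : V →ₗ[K] V) (f : K[X]) : kd y f 0 = 0 := by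
  rw [kd, kk_zero, finrank_bot]

variable [FiniteDimensional K V]

theorem kd_mono (y : V →ₗ[K] V) (f : K[X]) : Monotone (kd y f) := fun _ _ h => Submodule.finrank_mono (kk_mono y f h)

/-- if the chain does not stop at `j`, then the lower terms are large -/
theorem kd_step {y : V →ₗ[K] V} {f : K[X]} (hf : Irreducible f) (hm : f.Monic) {j : ℕ} (h : kd y f j ≠ kd y f (j + 1)) :
    f.natDegree * j ≤ kd y f j ∧ kd y f j + f.natDegree ≤ kd y f (j + 1) := by
  obtain ⟨v, h1, h2⟩ : ∃ v, v ∈ kk y f (j + 1) ∧ v ∉ kk y f j := by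
    by_contra hc
    push Not at hc
    exact h (le_antisymm (kd_mono y f (Nat.le_succ j)) (Submodule.finrank_mono hc))
  have hv := ann_of_not_mem hf h1 h2
  constructor
  · have hu : Ann y (aeval y f v) (f ^ j) := by
      intro g
      rw [← aeval_mul_apply, hv, pow_succ, mul_dvd_mul_iff_right hf.ne_zero]
    have := natDegree_le_finrank (hm.pow j) hu (kk y f j) (fun h => by
      rw [mem_kk, ← aeval_mul_apply, ← aeval_mul_apply]
      exact (hv _).2 (by rw [pow_succ, mul_assoc, mul_comm h]; exact mul_dvd_mul_left _ (Dvd.intro _ rfl)))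
    rwa [natDegree_pow, mul_comm] at this
  · let φ : degreeLT K f.natDegree →ₗ[K] V :=
      { toFun := fun h => aeval y (h : K[X]) v
        map_add' := fun a b => by simp
        map_smul' := fun a b => by simp }
    have hφ0 : ∀ g, φ g ∈ kk y f j → g = 0 := by
      rintro ⟨g, hg⟩ h0
      have h1 : aeval y (f ^ j * g) v = 0 := by rw [aeval_mul_apply]; exact h0
      have h2 : f ∣ g := by
        have := (hv _).1 h1
        rw [pow_succ] at this
        exact (mul_dvd_mul_iff_left (pow_ne_zero j hf.ne_zero)).1 this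
      ext1
      by_contra hne
      have h3 := degree_le_of_dvd h2 hne
      rw [mem_degreeLT, ← degree_eq_natDegree hm.ne_zero] at hg
      exact absurd (h3.trans_lt hg) (lt_irrefl _)
    have hφ : Function.Injective φ := by
      rw [← LinearMap.ker_eq_bot, LinearMap.ker_eq_bot']
      intro g hg
      exact hφ0 g (hg ▸ Submodule.zero_mem _)
    have hdis : Disjoint (kk y f j) (LinearMap.range φ) := by
      rw [Submodule.disjoint_def]
      rintro x hx ⟨g, rfl⟩
      rw [hφ0 g hx, map_zero]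
    have hle : kk y f j ⊔ LinearMap.range φ ≤ kk y f (j + 1) := by
      refine sup_le (kk_mono y f (Nat.le_succ j)) ?_
      rintro x ⟨g, rfl⟩
      rw [mem_kk]
      show aeval y (f ^ (j + 1)) (aeval y (g : K[X]) v) = 0
      rw [← aeval_mul_apply]
      exact (hv _).2 (Dvd.intro _ rfl)
    have h3 := Submodule.finrank_mono hle
    have h4 := Submodule.finrank_sup_add_finrank_inf_eq (kk y f j) (LinearMap.range φ)
    rw [hdis.eq_bot, finrank_bot, add_zero] at h4
    rw [h4, LinearMap.finrank_range_of_inj hφ, (degreeLTEquiv K f.natDegree).finrank_eq, finrank_fin_fun] at h3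
    exact h3

theorem kd_le (y : V →ₗ[K] V) (f : K[X]) (j : ℕ) : kd y f j ≤ finrank K V := Submodule.finrank_le _

omit [FiniteDimensional K V] in
/-- if the chain stops once, it stops forever -/
theorem kk_stop {y : V →ₗ[K] V} {f : K[X]} {j : ℕ} (h : kk y f (j + 1) ≤ kk y f j) (i : ℕ) : kk y f (j + i) ≤ kk y f j := by
  induction i with
  | zero => exact le_rfl
  | succ i ih =>
    intro v hv
    apply ih
    rw [mem_kk] at hv ⊢
    have h1 : aeval y (f ^ i) v ∈ kk y f (j + 1) := by
      rw [mem_kk, ← aeval_mul_apply, ← pow_add]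
      rwa [show j + 1 + i = j + (i + 1) by ring]
    have h2 := h h1
    rwa [mem_kk, ← aeval_mul_apply, ← pow_add] at h2

theorem kk_stop' {y : V →ₗ[K] V} {f : K[X]} {j : ℕ} (h : kd y f j = kd y f (j + 1)) (i : ℕ) : kk y f i ≤ kk y f j := by
  have h1 : kk y f (j + 1) ≤ kk y f j := (Submodule.eq_of_le_of_finrank_eq (kk_mono y f (Nat.le_succ j)) h).ge
  rcases le_total i j with hi | hi
  · exact kk_mono y f hi
  · obtain ⟨k, rfl⟩ := Nat.exists_eq_add_of_le hi
    exact kk_stop h1 k

/-- the primary component -/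
noncomputable def kv (y : V →ₗ[K] V) (f : K[X]) : Submodule K V := ⨆ j : ℕ, LinearMap.ker (aeval y (f ^ j))

theorem kv_le_of_stop {y : V →ₗ[K] V} {f : K[X]} {j : ℕ} (h : kd y f j = kd y f (j + 1)) : kv y f ≤ kk y f j :=
  iSup_le fun i => kk_stop' h i

theorem kv_le {y : V →ₗ[K] V} {f : K[X]} (hf : Irreducible f) (hm : f.Monic) {n : ℕ} (hn : finrank K V ≤ n) :
    kv y f ≤ kk y f n := by
  refine kv_le_of_stop ?_
  by_contra h
  obtain ⟨h1, h2⟩ := kd_step hf hm h
  have h3 := kd_le y f (n + 1)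
  have h4 : 1 ≤ f.natDegree := hf.natDegree_pos
  nlinarith

theorem kd_two_le (y : V →ₗ[K] V) (f : K[X]) : kd y f 2 ≤ 2 * kd y f 1 := by
  let φ : kk y f 2 →ₗ[K] V := (aeval y f).domRestrict (kk y f 2)
  have h1 := LinearMap.finrank_range_add_finrank_ker φ
  have h2 : LinearMap.range φ ≤ kk y f 1 := by
    rintro x ⟨⟨v, hv⟩, rfl⟩
    rw [mem_kk, pow_one]
    show aeval y f (aeval y f v) = 0
    rw [← aeval_mul_apply, ← sq]
    exact hv
  have h3 : (LinearMap.ker φ).map (kk y f 2).subtype ≤ kk y f 1 := by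
    rintro x ⟨⟨v, hv⟩, h, rfl⟩
    rw [mem_kk, pow_one]
    exact h
  have h4 := Submodule.finrank_mono h2
  have h5 := Submodule.finrank_mono h3
  rw [Submodule.finrank_map_subtype_eq] at h5
  change _ + _ = kd y f 2 at h1
  change _ ≤ kd y f 1 at h4
  change _ ≤ kd y f 1 at h5
  omega

end ker

/-! ### counting vectors -/

section count

variable {K V : Type*} [Field K] [Finite K] [AddCommGroup V] [Module K V] [Finite V]

theorem two_le_q : (2 : ℝ) ≤ Nat.card K := by
  exact_mod_cast (Finite.one_lt_card (α := K))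

omit [Finite K] in
theorem card_kk (y : V →ₗ[K] V) (f : K[X]) (j : ℕ) : Nat.card (kk y f j) = Nat.card K ^ kd y f j :=
  Module.natCard_eq_pow_finrank (K := K)

/-- the number of vectors with annihilator `f ^ (j + 1)` -/
theorem count_ge {y : V →ₗ[K] V} {f : K[X]} (hf : Irreducible f) (hm : f.Monic) (j : ℕ) :
    ((Nat.card K : ℝ) ^ (kd y f (j + 1) - kd y f j) - 1) * (Nat.card K : ℝ) ^ (f.natDegree * j) ≤
      Nat.card {v : V // Ann y v (f ^ (j + 1))} := by
  have hQ := two_le_q (K := K)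
  rcases eq_or_ne (kd y f j) (kd y f (j + 1)) with h | h
  · rw [h, Nat.sub_self, pow_zero, sub_self, zero_mul]
    exact Nat.cast_nonneg _
  obtain ⟨h1, h2⟩ := kd_step hf hm h
  have h3 : Nat.card K ^ kd y f (j + 1) ≤ Nat.card {v : V // Ann y v (f ^ (j + 1))} + Nat.card K ^ kd y f j := by
    rw [← card_kk, ← card_kk]
    have h4 : ((kk y f (j + 1) : Set V)) ⊆ {v : V | Ann y v (f ^ (j + 1))} ∪ (kk y f j : Set V) := by
      intro v hv
      by_cases hv' : v ∈ kk y f j
      · exact Or.inr hv'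
      · exact Or.inl (ann_of_not_mem hf hv hv')
    have h5 := Set.ncard_le_ncard h4 (Set.toFinite _)
    exact h5.trans (Set.ncard_union_le _ _)
  have h4 : (Nat.card K : ℝ) ^ kd y f (j + 1) ≤
      Nat.card {v : V // Ann y v (f ^ (j + 1))} + (Nat.card K : ℝ) ^ kd y f j := by exact_mod_cast h3
  have h5 : (Nat.card K : ℝ) ^ (kd y f (j + 1) - kd y f j) * (Nat.card K : ℝ) ^ kd y f j =
      (Nat.card K : ℝ) ^ kd y f (j + 1) := by
    rw [← pow_add]; congr 1; omega
  have h6 : (Nat.card K : ℝ) ^ (f.natDegree * j) ≤ (Nat.card K : ℝ) ^ kd y f j :=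
    pow_le_pow_right₀ (by linarith) h1
  have h7 : (1 : ℝ) ≤ (Nat.card K : ℝ) ^ (kd y f (j + 1) - kd y f j) := one_le_pow₀ (by linarith)
  nlinarith

/-- `b (q ^ d - 1) ≤ d (q ^ b - 1)` for `d ≤ b` -/
theorem conv {q : ℝ} (hq : 2 ≤ q) {d b : ℕ} (hd : 1 ≤ d) (h : d ≤ b) : (b : ℝ) * (q ^ d - 1) ≤ d * (q ^ b - 1) := by
  induction b, h using Nat.le_induction with
  | base => exact le_rfl
  | succ b h ih =>
    have h1 : q ^ d ≤ q ^ b := pow_le_pow_right₀ (by linarith) h
    have h2 : (1 : ℝ) ≤ d := by exact_mod_cast hd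
    have h3 : (0 : ℝ) < q ^ b := by positivity
    rw [pow_succ]
    push_cast
    nlinarith [mul_le_mul h2 (show (1 : ℝ) ≤ q - 1 by linarith) zero_le_one (by linarith)]

/-- the number of vectors with annihilator `f ^ (j + 1)` -/
theorem count_ge' {y : V →ₗ[K] V} {f : K[X]} (hf : Irreducible f) (hm : f.Monic) (j : ℕ) :
    ((kd y f (j + 1) - kd y f j : ℕ) : ℝ) * ((Nat.card K : ℝ) ^ (f.natDegree * j) * ((Nat.card K : ℝ) ^ f.natDegree - 1)) ≤
      f.natDegree * Nat.card {v : V // Ann y v (f ^ (j + 1))} := by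
  have hQ := two_le_q (K := K)
  rcases eq_or_ne (kd y f j) (kd y f (j + 1)) with h | h
  · rw [h, Nat.sub_self, Nat.cast_zero, zero_mul]
    positivity
  obtain ⟨h1, h2⟩ := kd_step hf hm h
  have h3 := conv hQ hf.natDegree_pos (show f.natDegree ≤ kd y f (j + 1) - kd y f j by omega)
  have h4 := count_ge (y := y) hf hm j
  have h5 : (0 : ℝ) < (Nat.card K : ℝ) ^ (f.natDegree * j) := by positivity
  have h6 : (0 : ℝ) ≤ f.natDegree := Nat.cast_nonneg _
  calc _ = (((kd y f (j + 1) - kd y f j : ℕ) : ℝ) * ((Nat.card K : ℝ) ^ f.natDegree - 1)) *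
        (Nat.card K : ℝ) ^ (f.natDegree * j) := by ring
    _ ≤ (f.natDegree * ((Nat.card K : ℝ) ^ (kd y f (j + 1) - kd y f j) - 1)) * (Nat.card K : ℝ) ^ (f.natDegree * j) :=
        mul_le_mul_of_nonneg_right h3 h5.le
    _ = f.natDegree * (((Nat.card K : ℝ) ^ (kd y f (j + 1) - kd y f j) - 1) * (Nat.card K : ℝ) ^ (f.natDegree * j)) := by
        ring
    _ ≤ _ := mul_le_mul_of_nonneg_left h4 h6

omit [Finite K] in
/-- the number of pairs -/
theorem sum_ann {X : Type*} [Group X] [Fintype X] (τ : X →* (V →ₗ[K] V)) (g : K[X]) :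
    ∑ x : X, (Nat.card {v : V // Ann (τ x) v g} : ℝ) = Nat.card {p : X × V // Ann (τ p.1) p.2 g} := by
  rw [← Nat.cast_sum, ← Nat.card_sigma]
  congr 1
  exact Nat.card_congr
    { toFun := fun p => ⟨(p.1, p.2.1), p.2.2⟩
      invFun := fun p => ⟨p.1.1, p.1.2, p.2⟩
      left_inv := fun p => rfl
      right_inv := fun p => rfl }

/-- the average of the `j`-th step -/
theorem avg_step {X : Type*} [Group X] [Fintype X] (τ : X →* (V →ₗ[K] V)) {f : K[X]} (hf : Irreducible f) (hm : f.Monic)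
    (j : ℕ) {B : ℝ} (hB : (Nat.card {p : X × V // Ann (τ p.1) p.2 (f ^ (j + 1))} : ℝ) ≤ B) :
    ∑ x : X, ((kd (τ x) f (j + 1) - kd (τ x) f j : ℕ) : ℝ) ≤
      f.natDegree * B / ((Nat.card K : ℝ) ^ (f.natDegree * j) * ((Nat.card K : ℝ) ^ f.natDegree - 1)) := by
  have hQ := two_le_q (K := K)
  have h1 : (1 : ℝ) < (Nat.card K : ℝ) ^ f.natDegree := one_lt_pow₀ (by linarith) hf.natDegree_pos.ne'
  rw [le_div_iff₀ (mul_pos (by positivity) (by linarith)), Finset.sum_mul]
  refine (Finset.sum_le_sum fun x _ => count_ge' hf hm j).trans ?_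
  rw [← Finset.mul_sum, sum_ann]
  exact mul_le_mul_of_nonneg_left hB (Nat.cast_nonneg _)

omit [Finite K] in
theorem kv_sum {y : V →ₗ[K] V} {f : K[X]} (hf : Irreducible f) (hm : f.Monic) {n : ℕ} (hn : finrank K V ≤ n) :
    (finrank K (kv y f) : ℝ) ≤ ∑ j ∈ Finset.range n, ((kd y f (j + 1) - kd y f j : ℕ) : ℝ) := by
  have h1 : finrank K (kv y f) ≤ kd y f n := Submodule.finrank_mono (kv_le hf hm hn)
  have h2 : ∀ n, kd y f n = ∑ j ∈ Finset.range n, (kd y f (j + 1) - kd y f j) := by
    intro n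
    induction n with
    | zero => rw [kd_zero, Finset.sum_range_zero]
    | succ n ih =>
      rw [Finset.sum_range_succ, ← ih]
      have : kd y f n ≤ kd y f (n + 1) := kd_mono y f (Nat.le_succ n)
      omega
  rw [← Nat.cast_sum, ← h2]
  exact_mod_cast h1

omit [Finite K] in
/-- the sum of the primary components -/
theorem smallP_le (y : V →ₗ[K] V) {S : Set K[X]} {T : Finset K[X]} (h : ∀ f ∈ S, f ∈ T) :
    finrank K (smallP y S) ≤ ∑ f ∈ T, finrank K (kv y f) := by
  classical
  have h1 : ∀ T : Finset K[X], finrank K ↥(T.sup fun f => kv y f) ≤ ∑ f ∈ T, finrank K (kv y f) := by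
    intro T
    induction T using Finset.induction_on with
    | empty => simp
    | insert a T ha ih =>
      rw [Finset.sup_insert, Finset.sum_insert ha]
      exact (Submodule.finrank_add_le_finrank_add_finrank _ _).trans (by omega)
  refine (Submodule.finrank_mono ?_).trans (h1 T)
  exact iSup₂_le fun f hf => Finset.le_sup (f := fun f => kv y f) (h f hf)

end count

end Cfsg.Agent.H5.Rg
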