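import Cfsg.Agent.H5.Rg.Ker

/-!
# S5714, team RG: the small part (helper5)
-/

set_option autoImplicit false
set_option linter.unusedSectionVars false

namespace Cfsg.Agent.H5.Rg

open Cfsg Cfsg.Agent.H141.Rg Polynomial Module

/-! ### numbers -/

theorem pow4_le (a : ℕ) : a ^ 4 ≤ 32 * 2 ^ a := by
  rcases Nat.lt_or_ge a 6 with h | h
  · interval_cases a <;> norm_num
  · induction a, h using Nat.le_induction with
    | base => norm_num
    | succ a h ih =>
      have h1 : (a + 1) ^ 4 ≤ 2 * a ^ 4 := by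
        have h2 : 36 ≤ a ^ 2 := by nlinarith
        have h3 : 6 * a ^ 3 ≤ a ^ 4 := by
          calc 6 * a ^ 3 ≤ a * a ^ 3 := Nat.mul_le_mul_right _ h
            _ = a ^ 4 := by ring
        have h4 : 6 * a ^ 2 ≤ a ^ 3 := by
          calc 6 * a ^ 2 ≤ a * a ^ 2 := Nat.mul_le_mul_right _ h
            _ = a ^ 3 := by ring
        have h5 : (a + 1) ^ 4 = a ^ 4 + 4 * a ^ 3 + 6 * a ^ 2 + 4 * a + 1 := by ring
        nlinarith
      rw [pow_succ 2 a]
      omega

theorem sq_le_pow {r : ℝ} (hr : 0 ≤ r) (h2 : 2 ≤ r ^ 2) (a : ℕ) : (a : ℝ) ^ 2 ≤ 6 * r ^ a := by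
  have h1 : (a : ℝ) ^ 4 ≤ 32 * 2 ^ a := by exact_mod_cast pow4_le a
  have h3 : (2 : ℝ) ^ a ≤ (r ^ 2) ^ a := pow_le_pow_left₀ (by norm_num) h2 a
  have h4 : ((a : ℝ) ^ 2) ^ 2 ≤ (6 * r ^ a) ^ 2 := by
    calc ((a : ℝ) ^ 2) ^ 2 = (a : ℝ) ^ 4 := by ring
      _ ≤ 32 * 2 ^ a := h1
      _ ≤ 36 * (r ^ 2) ^ a := by nlinarith [show (0 : ℝ) < 2 ^ a by positivity]
      _ = (6 * r ^ a) ^ 2 := by ring
  exact (abs_le_of_sq_le_sq' h4 (by positivity)).2

/-! ### the divisors of `X ^ 2 - 1` -/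

theorem irr_sub {K : Type*} [Field K] (a : K) : Irreducible (Polynomial.X - C a) := irreducible_X_sub_C a

theorem irr_dvd {K : Type*} [Field K] {f : K[X]} (hf : Irr' f) (h : f ∣ Polynomial.X ^ 2 - 1) :
    f = Polynomial.X - C 1 ∨ f = Polynomial.X - C (-1) := by
  have h1 : (Polynomial.X ^ 2 - 1 : K[X]) = (Polynomial.X - C 1) * (Polynomial.X - C (-1)) := by
    rw [C_neg, C_1]; ring
  rw [h1] at h
  rcases hf.2.1.prime.dvd_or_dvd h with h | h
  · exact Or.inl (eq_of_monic_of_associated hf.1 (monic_X_sub_C _) (hf.2.1.associated_of_dvd (irr_sub _) h))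
  · exact Or.inr (eq_of_monic_of_associated hf.1 (monic_X_sub_C _) (hf.2.1.associated_of_dvd (irr_sub _) h))

/-! ### orthogonal groups of bounded rank -/

section bounded

variable {K V : Type*} [Field K] [Finite K] [AddCommGroup V] [Module K V] [Finite V]

/-- the number of vectors with annihilator `(X - a) ^ j` -/
noncomputable def nv (y : V →ₗ[K] V) (a : K) (j : ℕ) : ℝ := Nat.card {v : V // Ann y v ((Polynomial.X - C a) ^ j)}

theorem nv_nonneg (y : V →ₗ[K] V) (a : K) (j : ℕ) : 0 ≤ nv y a j := Nat.cast_nonneg _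

theorem nv_ge (y : V →ₗ[K] V) (a : K) (j : ℕ) {l : ℕ}
    (h : kd y (Polynomial.X - C a) j + l ≤ kd y (Polynomial.X - C a) (j + 1)) :
    ((Nat.card K : ℝ) ^ l - 1) * (Nat.card K : ℝ) ^ j ≤ nv y a (j + 1) := by
  have hQ := two_le_q (K := K)
  have h1 := count_ge (y := y) (irr_sub a) (monic_X_sub_C a) j
  rw [natDegree_X_sub_C, one_mul] at h1
  refine le_trans (mul_le_mul_of_nonneg_right (sub_le_sub_right (pow_le_pow_right₀ (by linarith) ?_) 1) (by positivity)) h1
  omega

theorem one_dim {y : V →ₗ[K] V} (a : K) (h : 2 ≤ finrank K (kv y (Polynomial.X - C a))) :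
    2 ≤ kd y (Polynomial.X - C a) 1 ∨ kd y (Polynomial.X - C a) 1 + 1 ≤ kd y (Polynomial.X - C a) 2 := by
  by_contra hc
  push Not at hc
  have h1 := kd_mono y (Polynomial.X - C a) (show 1 ≤ 2 by norm_num)
  have h2 := Submodule.finrank_mono (kv_le_of_stop (y := y) (f := Polynomial.X - C a) (j := 1)
    (by show kd _ _ 1 = kd _ _ 2; omega))
  change _ ≤ kd y (Polynomial.X - C a) 1 at h2
  omega

theorem two_dim {y : V →ₗ[K] V} (a : K) (h : 3 ≤ finrank K (kv y (Polynomial.X - C a))) :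
    2 ≤ kd y (Polynomial.X - C a) 1 ∨ kd y (Polynomial.X - C a) 2 + 1 ≤ kd y (Polynomial.X - C a) 3 := by
  by_contra hc
  push Not at hc
  have h1 := kd_mono y (Polynomial.X - C a) (show 2 ≤ 3 by norm_num)
  have h2 := Submodule.finrank_mono (kv_le_of_stop (y := y) (f := Polynomial.X - C a) (j := 2)
    (by show kd _ _ 2 = kd _ _ 3; omega))
  change _ ≤ kd y (Polynomial.X - C a) 2 at h2
  have h3 := kd_two_le y (Polynomial.X - C a)
  omega

open Classical in
/-- the weight -/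
noncomputable def wt (y : V →ₗ[K] V) (a : K) : ℝ :=
  nv y a 1 / ((Nat.card K : ℝ) ^ 2 - 1) + (if (2 : K) ≠ 0 then nv y a 2 / (((Nat.card K : ℝ) - 1) * Nat.card K) else 0) +
    nv y a 3 / (((Nat.card K : ℝ) - 1) * (Nat.card K : ℝ) ^ 2)

theorem wt_nonneg (y : V →ₗ[K] V) (a : K) : 0 ≤ wt y a := by
  have hQ := two_le_q (K := K)
  have h1 : (0 : ℝ) < (Nat.card K : ℝ) ^ 2 - 1 := by nlinarith
  have h2 : (0 : ℝ) < (Nat.card K : ℝ) - 1 := by linarith
  have p1 := nv_nonneg y a 1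
  have p2 := nv_nonneg y a 2
  have p3 := nv_nonneg y a 3
  unfold wt
  split_ifs <;> positivity

theorem one_le_wt {y : V →ₗ[K] V} {a : K} (h : 2 ≤ finrank K (kv y (Polynomial.X - C a)))
    (h' : (2 : K) ≠ 0 ∨ 3 ≤ finrank K (kv y (Polynomial.X - C a))) : 1 ≤ wt y a := by
  have hQ := two_le_q (K := K)
  have h1 : (0 : ℝ) < (Nat.card K : ℝ) ^ 2 - 1 := by nlinarith
  have h2 : (0 : ℝ) < (Nat.card K : ℝ) - 1 := by linarith
  have p1 := nv_nonneg y a 1
  have p2 := nv_nonneg y a 2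
  have p3 := nv_nonneg y a 3
  have q1 : 0 ≤ nv y a 1 / ((Nat.card K : ℝ) ^ 2 - 1) := by positivity
  have q2 : 0 ≤ nv y a 2 / (((Nat.card K : ℝ) - 1) * Nat.card K) := by positivity
  have q3 : 0 ≤ nv y a 3 / (((Nat.card K : ℝ) - 1) * (Nat.card K : ℝ) ^ 2) := by positivity
  have hA : 2 ≤ kd y (Polynomial.X - C a) 1 → 1 ≤ nv y a 1 / ((Nat.card K : ℝ) ^ 2 - 1) := by
    intro h3
    rw [le_div_iff₀ h1, one_mul]
    have := nv_ge y a 0 (l := 2) (by rw [kd_zero]; simpa using h3)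
    simpa using this
  unfold wt
  by_cases h0 : (2 : K) ≠ 0
  · rw [if_pos h0]
    rcases one_dim a h with h3 | h3
    · linarith [hA h3]
    · have := nv_ge y a 1 (l := 1) h3
      simp only [pow_one, Nat.reduceAdd] at this
      have : 1 ≤ nv y a 2 / (((Nat.card K : ℝ) - 1) * Nat.card K) := by
        rw [le_div_iff₀ (by positivity), one_mul]
        exact this
      linarith
  · rw [if_neg h0]
    have h3 := h'.resolve_left h0
    rcases two_dim a h3 with h3 | h3
    · linarith [hA h3]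
    · have := nv_ge y a 2 (l := 1) h3
      simp only [pow_one, Nat.reduceAdd] at this
      have : 1 ≤ nv y a 3 / (((Nat.card K : ℝ) - 1) * (Nat.card K : ℝ) ^ 2) := by
        rw [le_div_iff₀ (by positivity), one_mul]
        exact this
      linarith

theorem sum_wt {X : Type*} [Group X] [Fintype X] {τ : X →* (V →ₗ[K] V)} {c : ℝ} (h : ELsh τ c) {a : K}
    (ha : a = 1 ∨ a = -1) (hc : 1 ≤ c) : ∑ x : X, wt (τ x) a ≤ 6 * c / Nat.card K * Nat.card X := by
  classical
  have hQ := two_le_q (K := K)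
  have h1 : (0 : ℝ) < (Nat.card K : ℝ) ^ 2 - 1 := by nlinarith
  have h2 : (0 : ℝ) < (Nat.card K : ℝ) - 1 := by linarith
  obtain ⟨e1, e3, e2⟩ := h a ha
  have hX : (0 : ℝ) ≤ Nat.card X := Nat.cast_nonneg _
  rw [← sum_ann] at e1 e3
  have k1 : ∑ x : X, nv (τ x) a 1 ≤ c * Nat.card K * Nat.card X := by
    simpa only [nv, pow_one] using e1
  have k3 : ∑ x : X, nv (τ x) a 3 ≤ c * Nat.card K ^ 2 * Nat.card X := e3
  have b1 : (∑ x : X, nv (τ x) a 1) / ((Nat.card K : ℝ) ^ 2 - 1) ≤ 2 * c / Nat.card K * Nat.card X := by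
    rw [div_le_iff₀ h1]
    refine k1.trans ?_
    have : c * Nat.card K ≤ 2 * c / Nat.card K * ((Nat.card K : ℝ) ^ 2 - 1) := by
      rw [div_mul_eq_mul_div, le_div_iff₀ (by linarith)]
      nlinarith [mul_nonneg (show (0 : ℝ) ≤ c by linarith) (show (0 : ℝ) ≤ (Nat.card K : ℝ) ^ 2 - 2 by nlinarith)]
    calc _ ≤ 2 * c / Nat.card K * ((Nat.card K : ℝ) ^ 2 - 1) * Nat.card X := mul_le_mul_of_nonneg_right this hX
      _ = _ := by ring
  have b3 : (∑ x : X, nv (τ x) a 3) / (((Nat.card K : ℝ) - 1) * (Nat.card K : ℝ) ^ 2) ≤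
      2 * c / Nat.card K * Nat.card X := by
    rw [div_le_iff₀ (by positivity)]
    refine k3.trans ?_
    have : c * (Nat.card K : ℝ) ^ 2 ≤ 2 * c / Nat.card K * (((Nat.card K : ℝ) - 1) * (Nat.card K : ℝ) ^ 2) := by
      rw [div_mul_eq_mul_div, le_div_iff₀ (by linarith)]
      nlinarith [mul_nonneg (show (0 : ℝ) ≤ c * (Nat.card K : ℝ) ^ 2 by positivity) (show (0 : ℝ) ≤ Nat.card K - 2 by linarith)]
    calc _ ≤ 2 * c / Nat.card K * (((Nat.card K : ℝ) - 1) * (Nat.card K : ℝ) ^ 2) * Nat.card X :=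
          mul_le_mul_of_nonneg_right this hX
      _ = _ := by ring
  have b2 : (2 : K) ≠ 0 → (∑ x : X, nv (τ x) a 2) / (((Nat.card K : ℝ) - 1) * Nat.card K) ≤
      2 * c / Nat.card K * Nat.card X := by
    intro h0
    have e2' := e2 h0
    rw [← sum_ann] at e2'
    have k2 : ∑ x : X, nv (τ x) a 2 ≤ c * Nat.card K * Nat.card X := e2'
    rw [div_le_iff₀ (by positivity)]
    refine k2.trans ?_
    have : c * Nat.card K ≤ 2 * c / Nat.card K * (((Nat.card K : ℝ) - 1) * Nat.card K) := by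
      rw [div_mul_eq_mul_div, le_div_iff₀ (by linarith)]
      nlinarith [mul_nonneg (show (0 : ℝ) ≤ c * (Nat.card K : ℝ) by positivity) (show (0 : ℝ) ≤ Nat.card K - 2 by linarith)]
    calc _ ≤ 2 * c / Nat.card K * (((Nat.card K : ℝ) - 1) * Nat.card K) * Nat.card X :=
          mul_le_mul_of_nonneg_right this hX
      _ = _ := by ring
  have b0 : 0 ≤ 2 * c / Nat.card K * (Nat.card X : ℝ) := by positivity
  unfold wt
  rw [Finset.sum_add_distrib, Finset.sum_add_distrib, ← Finset.sum_div, ← Finset.sum_div]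
  by_cases h0 : (2 : K) ≠ 0
  · simp only [if_pos h0]
    rw [← Finset.sum_div]
    have := b2 h0
    have : 6 * c / Nat.card K * (Nat.card X : ℝ) = 3 * (2 * c / Nat.card K * (Nat.card X : ℝ)) := by ring
    linarith
  · simp only [if_neg h0, Finset.sum_const_zero]
    have : 6 * c / Nat.card K * (Nat.card X : ℝ) = 3 * (2 * c / Nat.card K * (Nat.card X : ℝ)) := by ring
    linarith

theorem finrank_small (y : V →ₗ[K] V) (h : 2 < finrank K (smallP y (Sml 1 (Polynomial.X ^ 2 - 1)))) :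
    1 ≤ wt y 1 + wt y (-1) := by
  classical
  have w1 := wt_nonneg y (1 : K)
  have w2 := wt_nonneg y (-1 : K)
  have hm : ∀ f ∈ Sml 1 (Polynomial.X ^ 2 - 1 : K[X]), f = Polynomial.X - C 1 ∨ f = Polynomial.X - C (-1) := by
    rintro f ⟨hf, h | h⟩
    · exact absurd hf.2.1.natDegree_pos (by omega)
    · exact irr_dvd hf h
  by_cases h0 : (2 : K) = 0
  · have e : (-1 : K) = 1 := by linear_combination -h0
    have h1 := smallP_le y (S := Sml 1 (Polynomial.X ^ 2 - 1)) (T := {Polynomial.X - C 1}) (fun f hf => by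
      have := hm f hf
      rw [e] at this
      simpa using this)
    rw [Finset.sum_singleton] at h1
    linarith [one_le_wt (y := y) (a := 1) (by omega) (Or.inr (by omega))]
  · have h1 := smallP_le y (S := Sml 1 (Polynomial.X ^ 2 - 1)) (T := {Polynomial.X - C 1, Polynomial.X - C (-1)})
      (fun f hf => by simpa using hm f hf)
    have hne : (Polynomial.X - C 1 : K[X]) ≠ Polynomial.X - C (-1) := by
      intro h2
      have h3 := C_injective (sub_right_injective h2)
      exact h0 (by linear_combination h3)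
    rw [Finset.sum_pair hne] at h1
    rcases Nat.lt_or_ge (finrank K (kv y (Polynomial.X - C 1))) 2 with h2 | h2
    · linarith [one_le_wt (y := y) (a := -1) (by omega) (Or.inl h0)]
    · linarith [one_le_wt (y := y) (a := 1) h2 (Or.inl h0)]

end bounded

/-- small part, orthogonal groups of bounded rank -/
theorem small_o : ∃ A : ℝ, 0 < A ∧ ∀ (K V : Type) [Field K] [Finite K] [AddCommGroup V] [Module K V] [Finite V] (X : Type) [Group X]
    [Finite X] (τ : X →* (V →ₗ[K] V)) (c : ℝ), 1 ≤ c → ELsh τ c →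
    (Nat.card {x : X // 2 < finrank K (smallP (τ x) (Sml 1 (Polynomial.X ^ 2 - 1)))} : ℝ) ≤
      A * c / Nat.card K * Nat.card X := by
  refine ⟨12, by norm_num, fun K V _ _ _ _ _ X _ _ τ c hc h => ?_⟩
  classical
  have := Fintype.ofFinite X
  have h1 := sum_wt h (Or.inl rfl) hc
  have h2 := sum_wt h (Or.inr rfl) hc
  have h3 : (Nat.card {x : X // 2 < finrank K (smallP (τ x) (Sml 1 (Polynomial.X ^ 2 - 1)))} : ℝ) ≤
      ∑ x : X, (wt (τ x) 1 + wt (τ x) (-1)) := by
    rw [Nat.card_eq_fintype_card, Fintype.card_subtype, Finset.card_eq_sum_ones, Nat.cast_sum]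
    rw [Finset.sum_filter]
    refine Finset.sum_le_sum fun x _ => ?_
    split_ifs with hx
    · rw [Nat.cast_one]
      exact finrank_small _ hx
    · exact add_nonneg (wt_nonneg _ _) (wt_nonneg _ _)
  rw [Finset.sum_add_distrib] at h3
  have : 12 * c / Nat.card K * (Nat.card X : ℝ) = 2 * (6 * c / Nat.card K * (Nat.card X : ℝ)) := by ring
  linarith

/-! ### unbounded rank -/

section unb

variable {K V : Type*} [Field K] [Finite K] [AddCommGroup V] [Module K V] [Finite V]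

theorem ed_le (σ : K →+* K) {g : K[X]} (hg : g ≠ 0) : ed σ g ≤ g.natDegree := by
  classical
  unfold ed
  refine natDegree_le_of_dvd ?_ hg
  convert EuclideanDomain.gcd_dvd_left g (str σ g)

/-- `√q` -/
noncomputable def rq (K : Type*) : ℝ := Real.sqrt (Nat.card K)

theorem rq_sq : rq K ^ 2 = Nat.card K := Real.sq_sqrt (Nat.cast_nonneg _)

theorem rq_ge : (4 : ℝ) / 3 ≤ rq K := by
  have hQ := two_le_q (K := K)
  exact Real.le_sqrt_of_sq_le (by nlinarith)

theorem rq_pow (m : ℕ) : Real.sqrt ((Nat.card K : ℝ) ^ m) = rq K ^ m := by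
  rw [← rq_sq (K := K), ← pow_mul, mul_comm, pow_mul, Real.sqrt_sq (pow_nonneg (show 0 ≤ rq K from Real.sqrt_nonneg _) _)]

/-- the terms of the sum in `sum_cyc` -/
noncomputable def tt (σ : K →+* K) (d : ℕ) (f : K[X]) (j : ℕ) : ℝ :=
  Real.sqrt ((Nat.card K : ℝ) ^ ed σ (f ^ (j + 1))) / ((Nat.card K : ℝ) ^ (d * j) * ((Nat.card K : ℝ) ^ d - 1))

theorem tt_nonneg (σ : K →+* K) {d : ℕ} (hd : 1 ≤ d) (f : K[X]) (j : ℕ) : 0 ≤ tt σ d f j := by
  have hQ := two_le_q (K := K)
  have h1 : (1 : ℝ) < (Nat.card K : ℝ) ^ d := one_lt_pow₀ (by linarith) (by omega)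
  exact div_nonneg (Real.sqrt_nonneg _) (mul_nonneg (by positivity) (by linarith))

theorem sqrt_ed_le (σ : K →+* K) {f : K[X]} (hf : f ≠ 0) (j : ℕ) :
    Real.sqrt ((Nat.card K : ℝ) ^ ed σ (f ^ j)) ≤ rq K ^ (f.natDegree * j) := by
  have h1 := rq_ge (K := K)
  rw [rq_pow]
  refine pow_le_pow_right₀ (by linarith) ((ed_le σ (pow_ne_zero _ hf)).trans ?_)
  exact (natDegree_pow_le).trans (by rw [mul_comm])

theorem tt_summable (σ : K →+* K) {f : K[X]} (hf : f ≠ 0) (hd : 1 ≤ f.natDegree) : Summable (tt σ f.natDegree f) := by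
  have hQ := two_le_q (K := K)
  have hr := rq_ge (K := K)
  have h1 : (1 : ℝ) < (Nat.card K : ℝ) ^ f.natDegree := one_lt_pow₀ (by linarith) (by omega)
  have h2 : (1 : ℝ) < rq K ^ f.natDegree := one_lt_pow₀ (by linarith) (by omega)
  have h3 : Summable fun j : ℕ => rq K ^ f.natDegree / ((Nat.card K : ℝ) ^ f.natDegree - 1) * (1 / rq K ^ f.natDegree) ^ j :=
    (summable_geometric_of_lt_one (by positivity) ((div_lt_one (by positivity)).2 h2)).mul_left _
  refine Summable.of_nonneg_of_le (fun j => tt_nonneg σ hd f j) (fun j => ?_) h3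
  have h4 := sqrt_ed_le σ hf (j + 1)
  have h5 : (0 : ℝ) < (Nat.card K : ℝ) ^ f.natDegree - 1 := by linarith
  have h6 : rq K ^ (f.natDegree * (j + 1)) = rq K ^ f.natDegree * rq K ^ (f.natDegree * j) := by
    rw [← pow_add]; congr 1; ring
  have h7 : (Nat.card K : ℝ) ^ (f.natDegree * j) = rq K ^ (f.natDegree * j) * rq K ^ (f.natDegree * j) := by
    rw [← rq_sq, ← pow_mul, ← pow_add]; congr 1; ring
  have h8 : (0 : ℝ) < rq K ^ (f.natDegree * j) := by positivity
  unfold tt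
  rw [one_div, inv_pow, ← pow_mul]
  calc _ ≤ rq K ^ (f.natDegree * (j + 1)) / ((Nat.card K : ℝ) ^ (f.natDegree * j) * ((Nat.card K : ℝ) ^ f.natDegree - 1)) :=
        div_le_div_of_nonneg_right h4 (by positivity)
    _ = _ := by
      rw [h6, h7]
      field_simp

/-- one step, one polynomial -/
theorem step_le {X : Type*} [Group X] [Fintype X] {σ : K →+* K} {τ : X →* (V →ₗ[K] V)} {s : K[X]} {c : ℕ → ℝ} {c1 : ℝ}
    (hc1 : 1 ≤ c1) (h1 : ∀ D, 2 * D < finrank K V → c D ≤ c1) (h2 : ∀ D, c D ≤ c1 * Nat.card K) (hE : EL σ τ s c)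
    {L : ℕ} (hL : 16 * L ≤ finrank K V) {f : K[X]} (hf : Irr' f) (hs : IsCoprime f s) (hd : f.natDegree < L) (j : ℕ) :
    ∑ x : X, ((kd (τ x) f (j + 1) - kd (τ x) f j : ℕ) : ℝ) ≤
      (c1 * (f.natDegree * tt σ f.natDegree f j) + 12 * c1 / (finrank K V * (Nat.card K : ℝ) ^ L)) * Nat.card X := by
  have hQ := two_le_q (K := K)
  have hr := rq_ge (K := K)
  have hdp := hf.2.1.natDegree_pos
  have hX : (0 : ℝ) ≤ Nat.card X := Nat.cast_nonneg _
  have hn : (0 : ℝ) < finrank K V := by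
    have : 0 < finrank K V := by omega
    exact_mod_cast this
  have h3 : (1 : ℝ) < (Nat.card K : ℝ) ^ f.natDegree := one_lt_pow₀ (by linarith) (by omega)
  have h4 : (0 : ℝ) < (Nat.card K : ℝ) ^ f.natDegree - 1 := by linarith
  have h5 : (0 : ℝ) ≤ c1 * (f.natDegree * tt σ f.natDegree f j) := by
    have := tt_nonneg σ hdp f j
    positivity
  have h6 : (0 : ℝ) ≤ 12 * c1 / (finrank K V * (Nat.card K : ℝ) ^ L) := by positivity
  rcases Nat.lt_or_ge (finrank K V) (f.natDegree * (j + 1)) with h7 | h7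
  · have h8 : ∀ x : X, kd (τ x) f (j + 1) - kd (τ x) f j = 0 := by
      intro x
      rcases eq_or_ne (kd (τ x) f j) (kd (τ x) f (j + 1)) with h | h
      · omega
      · obtain ⟨h9, h10⟩ := kd_step hf.2.1 hf.1 h
        have h11 := kd_le (τ x) f (j + 1)
        have : f.natDegree * (j + 1) = f.natDegree * j + f.natDegree := by ring
        omega
    simp only [h8, Nat.cast_zero, Finset.sum_const_zero]
    positivity
  have hdeg : (f ^ (j + 1)).natDegree = f.natDegree * (j + 1) := by rw [natDegree_pow, mul_comm]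
  have h8 := hE (f ^ (j + 1)) (hf.1.pow _) (by
    rw [coeff_zero_eq_eval_zero, eval_pow]
    refine pow_ne_zero _ fun h0 => hf.2.2 ?_
    have h9 : (Polynomial.X : K[X]) ∣ f := by
      rw [X_dvd_iff, coeff_zero_eq_eval_zero]; exact h0
    exact (eq_of_monic_of_associated hf.1 monic_X (irreducible_X.associated_of_dvd hf.2.1 h9).symm)) hs.pow_left
  rw [hdeg] at h8
  rcases Nat.lt_or_ge (2 * (f.natDegree * (j + 1))) (finrank K V) with h9 | h9
  · have h10 : (Nat.card {p : X × V // Ann (τ p.1) p.2 (f ^ (j + 1))} : ℝ) ≤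
        c1 * Real.sqrt ((Nat.card K : ℝ) ^ ed σ (f ^ (j + 1))) * Nat.card X :=
      h8.trans (mul_le_mul_of_nonneg_right (mul_le_mul_of_nonneg_right (h1 _ h9) (Real.sqrt_nonneg _)) hX)
    refine (avg_step τ hf.2.1 hf.1 j h10).trans ?_
    rw [add_mul]
    refine le_trans (le_of_eq ?_) (le_add_of_nonneg_right (mul_nonneg h6 hX))
    unfold tt
    ring
  · have h10 : (Nat.card {p : X × V // Ann (τ p.1) p.2 (f ^ (j + 1))} : ℝ) ≤
        c1 * Nat.card K * rq K ^ (f.natDegree * (j + 1)) * Nat.card X := by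
      refine h8.trans (mul_le_mul_of_nonneg_right ?_ hX)
      exact mul_le_mul (h2 _) (sqrt_ed_le σ hf.1.ne_zero _) (Real.sqrt_nonneg _) (by positivity)
    refine (avg_step τ hf.2.1 hf.1 j h10).trans ?_
    rw [add_mul]
    refine le_trans ?_ (le_add_of_nonneg_left (mul_nonneg h5 hX))
    -- the numerical estimate
    set m := f.natDegree * (j + 1) with hm
    obtain ⟨a, ha⟩ : ∃ a, m = a + (2 * L + 2) := ⟨m - (2 * L + 2), by omega⟩
    have k1 : finrank K V ≤ 4 * a := by omega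
    have k2 : (f.natDegree * finrank K V : ℝ) ≤ 6 * rq K ^ a := by
      refine le_trans ?_ (sq_le_pow (by linarith) (by rw [rq_sq]; exact hQ) a)
      have k3 : 4 * f.natDegree ≤ a := by omega
      have k4 : f.natDegree * finrank K V ≤ a ^ 2 := by nlinarith
      exact_mod_cast k4
    have k5 : (Nat.card K : ℝ) ^ (f.natDegree * j) * ((Nat.card K : ℝ) ^ f.natDegree - 1) ≥ rq K ^ m * rq K ^ m / 2 := by
      have k6 : rq K ^ m * rq K ^ m = (Nat.card K : ℝ) ^ (f.natDegree * j) * (Nat.card K : ℝ) ^ f.natDegree := by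
        rw [← rq_sq, ← pow_mul, ← pow_mul, ← pow_add, ← pow_add, hm]; congr 1; ring
      have k7 : (2 : ℝ) ≤ (Nat.card K : ℝ) ^ f.natDegree := hQ.trans (le_self_pow₀ (by linarith) (by omega))
      rw [k6]
      have k8 : (0 : ℝ) < (Nat.card K : ℝ) ^ (f.natDegree * j) := by positivity
      nlinarith
    have k9 : rq K ^ m = rq K ^ a * ((Nat.card K : ℝ) ^ L * Nat.card K) := by
      rw [← rq_sq, ← pow_mul, ← pow_add, ← pow_add, ha]
    have k10 : (0 : ℝ) < rq K ^ m := by positivity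
    have k11 : (0 : ℝ) < (Nat.card K : ℝ) ^ (f.natDegree * j) * ((Nat.card K : ℝ) ^ f.natDegree - 1) := by positivity
    rw [div_mul_eq_mul_div, div_le_div_iff₀ k11 (by positivity)]
    have k12 : f.natDegree * (finrank K V : ℝ) * ((Nat.card K : ℝ) ^ L * Nat.card K) ≤ 6 * rq K ^ m := by
      rw [k9]
      calc _ ≤ (6 * rq K ^ a) * ((Nat.card K : ℝ) ^ L * Nat.card K) := mul_le_mul_of_nonneg_right k2 (by positivity)
        _ = _ := by ring
    calc _ = (c1 * rq K ^ m * Nat.card X) * (f.natDegree * (finrank K V : ℝ) * ((Nat.card K : ℝ) ^ L * Nat.card K)) := by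
          ring
      _ ≤ (c1 * rq K ^ m * Nat.card X) * (6 * rq K ^ m) := mul_le_mul_of_nonneg_left k12 (by positivity)
      _ = 12 * c1 * Nat.card X * (rq K ^ m * rq K ^ m / 2) := by ring
      _ ≤ _ := mul_le_mul_of_nonneg_left k5 (by positivity)

/-- `X - a` -/
theorem pm_step {X : Type*} [Group X] [Fintype X] {τ : X →* (V →ₗ[K] V)} {c : ℕ → ℝ} {c1 : ℝ}
    (hc1 : 1 ≤ c1) (h1 : ∀ D, 2 * D < finrank K V → c D ≤ c1) (h2 : ∀ D, c D ≤ c1 * Nat.card K) (hE : ELpm τ c)
    (hn : 16 ≤ finrank K V) {a : K} (ha : a = 1 ∨ a = -1) (j : ℕ) :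
    ∑ x : X, ((kd (τ x) (Polynomial.X - C a) (j + 1) - kd (τ x) (Polynomial.X - C a) j : ℕ) : ℝ) ≤
      15 * c1 * (3 / 4) ^ j * Nat.card X := by
  have hQ := two_le_q (K := K)
  have hr := rq_ge (K := K)
  have hX : (0 : ℝ) ≤ Nat.card X := Nat.cast_nonneg _
  have h3 := hE (j + 1) a (by omega) ha
  rw [rq_pow] at h3
  have hr0 : (0 : ℝ) < rq K := by linarith
  rcases Nat.lt_or_ge j 4 with hj | hj
  · -- the small steps
    have h4 : ∀ x : X, ((kd (τ x) (Polynomial.X - C a) (j + 1) - kd (τ x) (Polynomial.X - C a) j : ℕ) : ℝ) ≤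
        2 + 4 / ((Nat.card K : ℝ) ^ 2 * (Nat.card K : ℝ) ^ j) * Nat.card {v : V // Ann (τ x) v ((Polynomial.X - C a) ^ (j + 1))} := by
      intro x
      have h5 := count_ge (y := τ x) (irr_sub a) (monic_X_sub_C a) j
      rw [natDegree_X_sub_C, one_mul] at h5
      generalize kd (τ x) (Polynomial.X - C a) (j + 1) - kd (τ x) (Polynomial.X - C a) j = l at h5 ⊢
      have h6 : (l : ℝ) ≤ 2 + 4 / (Nat.card K : ℝ) ^ 2 * ((Nat.card K : ℝ) ^ l - 1) := by
        rcases Nat.lt_or_ge l 3 with hl | hl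
        · have h7 : (l : ℝ) ≤ 2 := by exact_mod_cast (show l ≤ 2 by omega)
          have h8 : (1 : ℝ) ≤ (Nat.card K : ℝ) ^ l := one_le_pow₀ (by linarith)
          have h9 : (0 : ℝ) ≤ 4 / (Nat.card K : ℝ) ^ 2 * ((Nat.card K : ℝ) ^ l - 1) :=
            mul_nonneg (by positivity) (by linarith)
          linarith
        · obtain ⟨i, rfl⟩ := Nat.exists_eq_add_of_le hl
          have h7 : (3 + i : ℕ) ≤ 2 + 2 * 2 ^ i := by
            have := Nat.lt_two_pow_self (n := i)
            omega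
          have h7' : ((3 + i : ℕ) : ℝ) ≤ 2 + 2 * 2 ^ i := by exact_mod_cast h7
          have h8 : (2 : ℝ) ^ i ≤ (Nat.card K : ℝ) ^ i := pow_le_pow_left₀ (by norm_num) hQ i
          have h9 : 2 * (Nat.card K : ℝ) ^ i ≤ 4 / (Nat.card K : ℝ) ^ 2 * ((Nat.card K : ℝ) ^ (3 + i) - 1) := by
            rw [div_mul_eq_mul_div, le_div_iff₀ (by positivity)]
            have h10 : (1 : ℝ) ≤ (Nat.card K : ℝ) ^ i := one_le_pow₀ (by linarith)
            have h11 : (Nat.card K : ℝ) ^ (3 + i) = (Nat.card K : ℝ) ^ 2 * Nat.card K * (Nat.card K : ℝ) ^ i := by ring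
            rw [h11]
            have h12 : (4 : ℝ) ≤ (Nat.card K : ℝ) ^ 2 := by nlinarith
            have h13 : (4 : ℝ) * 1 ≤ (Nat.card K : ℝ) ^ 2 * (Nat.card K : ℝ) ^ i := mul_le_mul h12 h10 zero_le_one (by positivity)
            nlinarith
          linarith
      refine h6.trans ?_
      have h7 : 4 / ((Nat.card K : ℝ) ^ 2 * (Nat.card K : ℝ) ^ j) * (((Nat.card K : ℝ) ^ l - 1) * (Nat.card K : ℝ) ^ j) =
          4 / (Nat.card K : ℝ) ^ 2 * ((Nat.card K : ℝ) ^ l - 1) := by field_simp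
      rw [← h7]
      exact add_le_add_right (mul_le_mul_of_nonneg_left h5 (by positivity)) _
    refine (Finset.sum_le_sum fun x _ => h4 x).trans ?_
    rw [Finset.sum_add_distrib, ← Finset.mul_sum, sum_ann, Finset.sum_const, Finset.card_univ, nsmul_eq_mul,
      ← Nat.card_eq_fintype_card]
    have h5 : 4 / ((Nat.card K : ℝ) ^ 2 * (Nat.card K : ℝ) ^ j) *
        (Nat.card {p : X × V // Ann (τ p.1) p.2 ((Polynomial.X - C a) ^ (j + 1))} : ℝ) ≤ 4 * c1 * Nat.card X := by
      have h6 : c (j + 1) ≤ c1 := h1 _ (by omega)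
      calc _ ≤ 4 / ((Nat.card K : ℝ) ^ 2 * (Nat.card K : ℝ) ^ j) * (c1 * (Nat.card K * rq K ^ (j + 1)) * Nat.card X) := by
            refine mul_le_mul_of_nonneg_left (h3.trans ?_) (by positivity)
            exact mul_le_mul_of_nonneg_right (mul_le_mul_of_nonneg_right h6 (by positivity)) hX
        _ = 4 * c1 * Nat.card X * (rq K ^ (j + 1) / ((Nat.card K : ℝ) * (Nat.card K : ℝ) ^ j)) := by
            field_simp
        _ ≤ 4 * c1 * Nat.card X * 1 := by
            refine mul_le_mul_of_nonneg_left ?_ (by positivity)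
            rw [div_le_one (by positivity), ← pow_succ', ← rq_sq, ← pow_mul]
            exact pow_le_pow_right₀ (by linarith) (by omega)
        _ = _ := by ring
    have h6 : (27 / 64 : ℝ) ≤ (3 / 4) ^ j := by
      calc (27 / 64 : ℝ) = (3 / 4) ^ 3 := by norm_num
        _ ≤ _ := pow_le_pow_of_le_one (by norm_num) (by norm_num) (by omega)
    have h7 : (Nat.card X : ℝ) * 2 ≤ 2 * c1 * Nat.card X := by nlinarith
    have h8 : 6 * c1 * (Nat.card X : ℝ) ≤ 15 * c1 * (3 / 4) ^ j * Nat.card X := by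
      have : (0 : ℝ) ≤ c1 * Nat.card X := by positivity
      nlinarith
    linarith
  · have h4 := avg_step τ (irr_sub a) (monic_X_sub_C a) j h3
    refine h4.trans ?_
    rw [natDegree_X_sub_C, Nat.cast_one, one_mul, one_mul, pow_one]
    obtain ⟨i, rfl⟩ := Nat.exists_eq_add_of_le (show 3 ≤ j by omega)
    have h5 : c (3 + i + 1) * (Nat.card K * rq K ^ (3 + i + 1)) * Nat.card X / ((Nat.card K : ℝ) ^ (3 + i) * (Nat.card K - 1)) ≤
        2 * c1 * Nat.card X * (1 / rq K) ^ i := by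
      rw [div_le_iff₀ (mul_pos (by positivity) (by linarith))]
      have h6 : (Nat.card K : ℝ) ^ (3 + i) = rq K ^ i * (rq K ^ i * rq K ^ 6) := by
        rw [← rq_sq]; ring
      have h7 : (1 / rq K) ^ i * ((Nat.card K : ℝ) ^ (3 + i) * (Nat.card K - 1)) = rq K ^ i * rq K ^ 6 * (Nat.card K - 1) := by
        rw [h6, one_div, inv_pow]
        field_simp
      have h8 : (Nat.card K : ℝ) ≤ 2 * (Nat.card K - 1) := by linarith
      calc _ ≤ c1 * Nat.card K * (Nat.card K * rq K ^ (3 + i + 1)) * Nat.card X :=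
            mul_le_mul_of_nonneg_right (mul_le_mul_of_nonneg_right (h2 _) (by positivity)) hX
        _ = c1 * Nat.card X * (rq K ^ i * rq K ^ 6) * Nat.card K := by
            rw [← rq_sq]; ring
        _ ≤ c1 * Nat.card X * (rq K ^ i * rq K ^ 6) * (2 * (Nat.card K - 1)) := mul_le_mul_of_nonneg_left h8 (by positivity)
        _ = 2 * c1 * Nat.card X * (rq K ^ i * rq K ^ 6 * (Nat.card K - 1)) := by ring
        _ = 2 * c1 * Nat.card X * ((1 / rq K) ^ i * ((Nat.card K : ℝ) ^ (3 + i) * (Nat.card K - 1))) := by rw [h7]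
        _ = _ := by ring
    refine h5.trans ?_
    have h6 : (1 / rq K) ^ i ≤ (3 / 4) ^ i := by
      refine pow_le_pow_left₀ (by positivity) ?_ i
      rw [div_le_iff₀ hr0]
      linarith
    calc _ ≤ 2 * c1 * Nat.card X * (3 / 4) ^ i := mul_le_mul_of_nonneg_left h6 (by positivity)
      _ ≤ 15 * c1 * (3 / 4) ^ 3 * Nat.card X * (3 / 4) ^ i := by
          refine mul_le_mul_of_nonneg_right ?_ (by positivity)
          have : (0 : ℝ) ≤ c1 * Nat.card X := by positivity
          nlinarith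
      _ = _ := by ring

/-- the primary components for `X - a` -/
theorem pm_sum {X : Type*} [Group X] [Fintype X] {τ : X →* (V →ₗ[K] V)} {c : ℕ → ℝ} {c1 : ℝ}
    (hc1 : 1 ≤ c1) (h1 : ∀ D, 2 * D < finrank K V → c D ≤ c1) (h2 : ∀ D, c D ≤ c1 * Nat.card K) (hE : ELpm τ c)
    (hn : 16 ≤ finrank K V) {a : K} (ha : a = 1 ∨ a = -1) :
    ∑ x : X, (finrank K (kv (τ x) (Polynomial.X - C a)) : ℝ) ≤ 60 * c1 * Nat.card X := by
  refine (Finset.sum_le_sum fun x _ => kv_sum (irr_sub a) (monic_X_sub_C a) le_rfl).trans ?_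
  rw [Finset.sum_comm]
  refine (Finset.sum_le_sum fun j _ => pm_step hc1 h1 h2 hE hn ha j).trans ?_
  rw [← Finset.sum_mul, ← Finset.mul_sum]
  have h3 : ∑ j ∈ Finset.range (finrank K V), (3 / 4 : ℝ) ^ j ≤ 4 := by
    have h4 := Summable.sum_le_tsum (Finset.range (finrank K V)) (fun i _ => by positivity)
      (summable_geometric_of_lt_one (show (0 : ℝ) ≤ 3 / 4 by norm_num) (by norm_num))
    rw [tsum_geometric_of_lt_one (by norm_num) (by norm_num)] at h4
    exact h4.trans (by norm_num)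
  have h4 : (0 : ℝ) ≤ 15 * c1 * Nat.card X := by positivity
  nlinarith

end unb

/-- small part, unbounded rank, from the sum over the irreducible polynomials -/
theorem small_le_of (hcyc : ∃ A : ℝ, 0 < A ∧ ∀ (K : Type) [Field K] [Finite K] (σ : K →+* K), (∀ x, σ (σ x) = x) →
      ∀ d : ℕ, 1 ≤ d →
      (∑ᶠ f ∈ {f : K[X] | Irr' f ∧ f.natDegree = d}, (d : ℝ) * ∑' j : ℕ, Real.sqrt ((Nat.card K : ℝ) ^ ed σ (f ^ (j + 1))) /
        ((Nat.card K : ℝ) ^ (d * j) * ((Nat.card K : ℝ) ^ d - 1))) ≤ A) :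
    ∃ A : ℝ, 0 < A ∧ ∀ (K V : Type) [Field K] [Finite K] [AddCommGroup V] [Module K V] [Finite V] (X : Type) [Group X]
    [Finite X] (σ : K →+* K), (∀ x, σ (σ x) = x) → ∀ (τ : X →* (V →ₗ[K] V)) (s : K[X]), (s = 1 ∨ s = Polynomial.X ^ 2 - 1) →
    ∀ (c : ℕ → ℝ) (c1 : ℝ), 1 ≤ c1 → (∀ D, 2 * D < finrank K V → c D ≤ c1) → (∀ D, c D ≤ c1 * Nat.card K) →
    EL σ τ s c → (s ≠ 1 → ELpm τ c) → ∀ L : ℕ, 1 ≤ L → 16 * L ≤ finrank K V →
    (∑ᶠ x : X, (finrank K (smallP (τ x) (Sml L s)) : ℝ)) ≤ A * c1 * L * Nat.card X := by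
  classical
  obtain ⟨A, hA, hcyc⟩ := hcyc
  refine ⟨A + 132, by linarith, fun K V _ _ _ _ _ X _ _ σ hσ τ s hs c c1 hc1 h1 h2 hE hpm L hL hn => ?_⟩
  have := Fintype.ofFinite X
  have hQ := two_le_q (K := K)
  have hX : (0 : ℝ) ≤ Nat.card X := Nat.cast_nonneg _
  rw [finsum_eq_sum_of_fintype]
  -- the finite sets of polynomials
  have hfin : ∀ m : ℕ, Finite (degreeLT K m) := fun m => Finite.of_equiv _ (degreeLTEquiv K m).toEquiv.symm
  have hmem : ∀ (m : ℕ) (f : K[X]), f ≠ 0 → f.natDegree < m → f ∈ degreeLT K m := fun m f h0 hf => by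
    rw [mem_degreeLT, degree_eq_natDegree h0]
    exact_mod_cast hf
  have hf1 : {f : K[X] | Irr' f ∧ IsCoprime f s ∧ f.natDegree < L}.Finite :=
    (Set.toFinite (degreeLT K L : Set K[X])).subset fun f hf => hmem L f hf.1.1.ne_zero hf.2.2
  have hf2 : ∀ d : ℕ, {f : K[X] | Irr' f ∧ f.natDegree = d}.Finite := fun d =>
    (Set.toFinite (degreeLT K (d + 1) : Set K[X])).subset fun f hf => hmem (d + 1) f hf.1.1.ne_zero (by
      have := hf.2
      omega)
  set T1 := hf1.toFinset with hT1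
  have hcard : (T1.card : ℝ) ≤ (Nat.card K : ℝ) ^ L := by
    have h3 : T1.card ≤ Nat.card (degreeLT K L) := by
      rw [hT1, ← Set.ncard_eq_toFinset_card _ hf1]
      exact Set.ncard_le_ncard (fun f hf => hmem L f hf.1.1.ne_zero hf.2.2) (Set.toFinite (degreeLT K L : Set K[X]))
    have h4 : Nat.card (degreeLT K L) = Nat.card K ^ L := by
      rw [Nat.card_congr (degreeLTEquiv K L).toEquiv, Nat.card_fun, Nat.card_fin]
    rw [h4] at h3
    exact_mod_cast h3
  set T2 : Finset K[X] := if s = 1 then ∅ else {Polynomial.X - C 1, Polynomial.X - C (-1)} with hT2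
  have hne : (Polynomial.X ^ 2 - 1 : K[X]) ≠ 1 := by
    intro h3
    have h4 := congrArg natDegree h3
    rw [← C_1, natDegree_X_pow_sub_C, natDegree_C] at h4
    omega
  have hS : ∀ f ∈ Sml L s, f ∈ T1 ∪ T2 := by
    rintro f ⟨hf, h⟩
    rw [Finset.mem_union, hT1, Set.Finite.mem_toFinset]
    by_cases hfs : f ∣ s
    · right
      rcases hs with rfl | rfl
      · exact absurd (isUnit_of_dvd_one hfs) hf.2.1.not_isUnit
      · rw [hT2, if_neg hne]
        simpa using irr_dvd hf hfs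
    · exact Or.inl ⟨hf, hf.2.1.coprime_iff_not_dvd.2 hfs, h.resolve_right hfs⟩
  have h3 : ∀ x : X, (finrank K (smallP (τ x) (Sml L s)) : ℝ) ≤
      ∑ f ∈ T1, (finrank K (kv (τ x) f) : ℝ) + ∑ f ∈ T2, (finrank K (kv (τ x) f) : ℝ) := by
    intro x
    have h4 := smallP_le (τ x) hS
    have h5 := Finset.sum_union_inter (s₁ := T1) (s₂ := T2) (f := fun f => finrank K (kv (τ x) f))
    have h6 : finrank K (smallP (τ x) (Sml L s)) ≤ ∑ f ∈ T1, finrank K (kv (τ x) f) + ∑ f ∈ T2, finrank K (kv (τ x) f) := by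
      omega
    exact_mod_cast h6
  refine (Finset.sum_le_sum fun x _ => h3 x).trans ?_
  rw [Finset.sum_add_distrib, Finset.sum_comm, Finset.sum_comm (t := T2)]
  -- the second part
  have hL1 : (1 : ℝ) ≤ L := by exact_mod_cast hL
  have p2 : ∑ f ∈ T2, ∑ x : X, (finrank K (kv (τ x) f) : ℝ) ≤ 120 * c1 * Nat.card X := by
    by_cases h1s : s = 1
    · rw [hT2, if_pos h1s, Finset.sum_empty]
      positivity
    · have hn' : 16 ≤ finrank K V := by omega
      have q1 := pm_sum hc1 h1 h2 (hpm h1s) hn' (a := 1) (Or.inl rfl)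
      have q2 := pm_sum hc1 h1 h2 (hpm h1s) hn' (a := -1) (Or.inr rfl)
      rw [hT2, if_neg h1s]
      by_cases he : (Polynomial.X - C 1 : K[X]) = Polynomial.X - C (-1)
      · rw [← he, Finset.pair_eq_singleton, Finset.sum_singleton]
        refine q1.trans ?_
        have : (0 : ℝ) ≤ c1 * Nat.card X := by positivity
        nlinarith
      · rw [Finset.sum_pair he]
        linarith
  -- the first part
  have hn0 : (0 : ℝ) < finrank K V := by
    have : 0 < finrank K V := by omega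
    exact_mod_cast this
  have p1 : ∑ f ∈ T1, ∑ x : X, (finrank K (kv (τ x) f) : ℝ) ≤ (A * c1 * L + 12 * c1) * Nat.card X := by
    have q1 : ∀ f ∈ T1, ∑ x : X, (finrank K (kv (τ x) f) : ℝ) ≤
        (c1 * (f.natDegree * ∑' j : ℕ, tt σ f.natDegree f j) + 12 * c1 / (Nat.card K : ℝ) ^ L) * Nat.card X := by
      intro f hf
      rw [hT1, Set.Finite.mem_toFinset] at hf
      obtain ⟨hf, hfs, hfL⟩ := hf
      refine (Finset.sum_le_sum fun x _ => kv_sum hf.2.1 hf.1 le_rfl).trans ?_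
      rw [Finset.sum_comm]
      refine (Finset.sum_le_sum fun j _ => step_le hc1 h1 h2 hE hn hf hfs hfL j).trans ?_
      rw [← Finset.sum_mul, Finset.sum_add_distrib, ← Finset.mul_sum, ← Finset.mul_sum, Finset.sum_const,
        Finset.card_range, nsmul_eq_mul]
      refine mul_le_mul_of_nonneg_right (add_le_add ?_ (le_of_eq ?_)) hX
      · refine mul_le_mul_of_nonneg_left (mul_le_mul_of_nonneg_left ?_ (Nat.cast_nonneg _)) (by linarith)
        exact Summable.sum_le_tsum _ (fun j _ => tt_nonneg σ hf.2.1.natDegree_pos f j)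
          (tt_summable σ hf.1.ne_zero hf.2.1.natDegree_pos)
      · field_simp
    refine (Finset.sum_le_sum q1).trans ?_
    rw [← Finset.sum_mul, Finset.sum_add_distrib, ← Finset.mul_sum, Finset.sum_const, nsmul_eq_mul]
    refine mul_le_mul_of_nonneg_right (add_le_add ?_ ?_) hX
    · have q2 : ∑ f ∈ T1, (f.natDegree * ∑' j : ℕ, tt σ f.natDegree f j : ℝ) ≤ ∑ d ∈ Finset.range L, A := by
        rw [← Finset.sum_fiberwise_of_maps_to (s := T1) (t := Finset.range L) (g := fun f => f.natDegree) (fun f hf => by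
          rw [hT1, Set.Finite.mem_toFinset] at hf
          exact Finset.mem_range.2 hf.2.2)]
        refine Finset.sum_le_sum fun d _ => ?_
        rcases Nat.eq_zero_or_pos d with rfl | hd
        · rw [Finset.sum_eq_zero]
          · exact hA.le
          · intro f hf
            rw [Finset.mem_filter, hT1, Set.Finite.mem_toFinset] at hf
            exact absurd hf.1.1.2.1.natDegree_pos (by omega)
        · refine le_trans ?_ (hcyc K σ hσ d hd)
          rw [finsum_mem_eq_finite_toFinset_sum _ (hf2 d)]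
          have q3 : ∀ f ∈ T1.filter (fun f => f.natDegree = d), (f.natDegree * ∑' j : ℕ, tt σ f.natDegree f j : ℝ) =
              (d : ℝ) * ∑' j : ℕ, tt σ d f j := by
            intro f hf
            rw [(Finset.mem_filter.1 hf).2]
          rw [Finset.sum_congr rfl q3]
          refine Finset.sum_le_sum_of_subset_of_nonneg ?_ ?_
          · intro f hf
            rw [Finset.mem_filter, hT1, Set.Finite.mem_toFinset] at hf
            rw [Set.Finite.mem_toFinset]
            exact ⟨hf.1.1, hf.2⟩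
          · intro f _ _
            exact mul_nonneg (Nat.cast_nonneg _) (tsum_nonneg fun j => tt_nonneg σ hd f j)
      rw [Finset.sum_const, Finset.card_range, nsmul_eq_mul] at q2
      calc _ ≤ c1 * (L * A) := mul_le_mul_of_nonneg_left q2 (by linarith)
        _ = _ := by ring
    · rw [mul_div_assoc', div_le_iff₀ (by positivity)]
      nlinarith [mul_le_mul_of_nonneg_right hcard (show (0 : ℝ) ≤ 12 * c1 by linarith)]
  have h4 : (0 : ℝ) ≤ c1 * Nat.card X := by positivity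
  nlinarith [mul_le_mul_of_nonneg_right hL1 h4]

end Cfsg.Agent.H5.Rg
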